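import Mathlib
import Cfsg.Agent.Lib.Helper58.G2Syl.Defs

set_option autoImplicit false

namespace Cfsg.Agent.Lib.Helper54.G2Syl

open Cfsg Cfsg.Lie Cfsg.Agent.Lib.Helper58.WrSyl Cfsg.Agent.Lib.Helper58.G2Syl
open scoped MatrixGroups
open Matrix.GeneralLinearGroup (scalar det)

theorem card_inf_ker_mul {G L : Type*} [Group G] [Group L] (f : G →* L) (T : Subgroup G) :
    Nat.card (f.ker ⊓ T : Subgroup G) * Nat.card (T.map f) = Nat.card T := by
  have h := Subgroup.relIndex_mul_relIndex ⊥ (f.ker ⊓ T) T bot_le inf_le_right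
  rw [Subgroup.relIndex_bot_left, Subgroup.relIndex_bot_left, Subgroup.inf_relIndex_right,
    Subgroup.relIndex_ker] at h
  exact h

/-- [C5a] -/
theorem val_fib {G₀ A : Type*} [Group G₀] [CommGroup A] [Finite G₀] [Finite A] (δ : G₀ →* A)
    (S : Subgroup G₀) :
    2 * (Nat.card S).factorization 2 ≤
      (Nat.card (fibSub δ S)).factorization 2 + (Nat.card A).factorization 2 := by
  set r : G₀ × G₀ →* A := (δ.comp (MonoidHom.fst G₀ G₀)) * (δ.comp (MonoidHom.snd G₀ G₀))⁻¹ with hr
  have hfib : fibSub δ S = r.ker ⊓ S.prod S := by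
    ext ⟨x, y⟩
    rw [mem_fibSub, Subgroup.mem_inf, MonoidHom.mem_ker, Subgroup.mem_prod]
    have : r (x, y) = δ x * (δ y)⁻¹ := rfl
    rw [this, mul_inv_eq_one]
    tauto
  have h1 := card_inf_ker_mul r (S.prod S)
  rw [← hfib, Nat.card_congr (Subgroup.prodEquiv S S).toEquiv, Nat.card_prod] at h1
  have hdvd : Nat.card ((S.prod S).map r) ∣ Nat.card A := Subgroup.card_subgroup_dvd_card _
  have hle : (Nat.card ((S.prod S).map r)).factorization 2 ≤ (Nat.card A).factorization 2 :=
    (Nat.factorization_le_iff_dvd Nat.card_pos.ne' Nat.card_pos.ne').2 hdvd 2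
  have h2 := congrArg (fun k => k.factorization 2) h1
  rw [Nat.factorization_mul Nat.card_pos.ne' Nat.card_pos.ne',
    Nat.factorization_mul Nat.card_pos.ne' Nat.card_pos.ne', Finsupp.add_apply,
    Finsupp.add_apply] at h2
  omega

/-- [C5b] -/
theorem val_map {F : Type*} [Field F] [Fintype F] {L : Type*} [Group L]
    (Φ : GL (Fin 2) F × GL (Fin 2) F →* L)
    (hker : ∀ A B, Φ (A, B) = 1 → ∃ l : Fˣ, A = scalar (Fin 2) l ∧ B = scalar (Fin 2) l)
    (T : Subgroup (GL (Fin 2) F × GL (Fin 2) F)) :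
    (Nat.card T).factorization 2 ≤
      (Nat.card (T.map Φ)).factorization 2 + (Fintype.card F - 1).factorization 2 := by
  classical
  have h1 := card_inf_ker_mul Φ T
  have hfin : Finite (T.map Φ) := by
    have : (T.map Φ : Set L) = Φ '' (T : Set _) := rfl
    exact (Set.toFinite (T : Set _)).image Φ
  set j : Fˣ →* GL (Fin 2) F × GL (Fin 2) F := (scalar (Fin 2)).prod (scalar (Fin 2)) with hj
  have hle : (Φ.ker ⊓ T : Subgroup _) ≤ j.range := by
    rintro ⟨A, B⟩ hAB
    obtain ⟨l, rfl, rfl⟩ := hker A B (MonoidHom.mem_ker.mp (Subgroup.mem_inf.mp hAB).1)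
    exact ⟨l, rfl⟩
  have hdvd : Nat.card (Φ.ker ⊓ T : Subgroup _) ∣ Fintype.card F - 1 := by
    have := (Subgroup.card_dvd_of_le hle).trans (Subgroup.card_range_dvd j)
    rwa [Nat.card_eq_fintype_card (α := Fˣ), Fintype.card_units] at this
  have hq : Fintype.card F - 1 ≠ 0 := by
    have := Fintype.one_lt_card (α := F)
    omega
  have hle2 : (Nat.card (Φ.ker ⊓ T : Subgroup _)).factorization 2
      ≤ (Fintype.card F - 1).factorization 2 :=
    (Nat.factorization_le_iff_dvd Nat.card_pos.ne' hq).2 hdvd 2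
  have h2 := congrArg (fun k => k.factorization 2) h1
  rw [Nat.factorization_mul Nat.card_pos.ne' Nat.card_pos.ne', Finsupp.add_apply] at h2
  omega

end Cfsg.Agent.Lib.Helper54.G2Syl
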