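import Mathlib
import Cfsg.Agent.Lib.Helper58.G2Syl.Defs
import Cfsg.Agent.Lib.Helper12.WrSyl.T2

set_option autoImplicit false

namespace Cfsg.Agent.Lib.Helper54.G2Syl

open Cfsg Cfsg.Lie Cfsg.Agent.Lib.Helper58.WrSyl Cfsg.Agent.Lib.Helper58.G2Syl
open scoped MatrixGroups
open Matrix.GeneralLinearGroup (scalar det)

/-- [X1] -/
theorem sylPC2_of_subgroup {G : Type*} [Group G] [Finite G] (T : Subgroup G) (hT : IsPGroup 2 T)
    (hv : (Nat.card G).factorization 2 ≤ (Nat.card T).factorization 2) (hpc : PowComm 2 T) :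
    SylPC2 G := by
  have : Fact (Nat.Prime 2) := ⟨Nat.prime_two⟩
  obtain ⟨Q, hQ⟩ := hT.exists_le_sylow
  have hQc : Nat.card Q = 2 ^ (Nat.card G).factorization 2 := Sylow.card_eq_multiplicity Q
  obtain ⟨k, hk⟩ := (IsPGroup.iff_card).mp hT
  have hk2 : (Nat.card T).factorization 2 = k := by
    rw [hk, Nat.factorization_pow, Finsupp.smul_apply, Nat.Prime.factorization_self Nat.prime_two]
    simp
  have hTQ : T = (Q : Subgroup G) := by
    apply Subgroup.eq_of_le_of_card_ge hQ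
    rw [hQc, hk]
    exact Nat.pow_le_pow_right (by norm_num) (by omega)
  intro P
  have e : (Q : Subgroup G) ≃* (P : Subgroup G) := Sylow.equiv Q P
  have hpcQ : PowComm 2 (Q : Subgroup G) := hTQ ▸ hpc
  exact Cfsg.Agent.Lib.Helper12.WrSyl.PowComm.of_equiv e hpcQ

end Cfsg.Agent.Lib.Helper54.G2Syl
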