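import Mathlib
import Cfsg.Agent.Lib.Helper58.G2Syl.Defs

set_option autoImplicit false

namespace Cfsg.Agent.Lib.Helper54.G2Syl

open Cfsg Cfsg.Lie Cfsg.Agent.Lib.Helper58.WrSyl Cfsg.Agent.Lib.Helper58.G2Syl
open scoped MatrixGroups
open Matrix.GeneralLinearGroup (scalar det)

/-- [X2] -/
theorem powComm_of_sq_mem {G : Type*} [Group G] (H : Subgroup G) (h : ∀ x ∈ H, x ^ 2 ∈ ⁅H, H⁆) :
    PowComm 2 H := by
  intro x
  have h1 := h x.1 x.2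
  rw [← Subgroup.map_subtype_commutator] at h1
  obtain ⟨y, hy, hyx⟩ := h1
  have : y = x ^ 2 := Subtype.ext (by rw [← Subgroup.coe_subtype, hyx]; rfl)
  rw [← this]
  exact hy

/-- [X4] -/
theorem isPGroup_fib {G₀ A : Type*} [Group G₀] [CommGroup A] (δ : G₀ →* A) (S : Subgroup G₀)
    (hS : IsPGroup 2 S) : IsPGroup 2 (fibSub δ S) := by
  rintro ⟨⟨x, y⟩, hx, hy, hxy⟩
  obtain ⟨k, hk⟩ := hS ⟨x, hx⟩
  obtain ⟨j, hj⟩ := hS ⟨y, hy⟩
  have hk' : x ^ 2 ^ k = 1 := congrArg Subtype.val hk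
  have hj' : y ^ 2 ^ j = 1 := congrArg Subtype.val hj
  refine ⟨k + j, Subtype.ext ?_⟩
  show (x, y) ^ 2 ^ (k + j) = 1
  rw [Prod.pow_mk, pow_add, pow_mul, hk', one_pow, mul_comm, pow_mul, hj', one_pow]
  rfl

end Cfsg.Agent.Lib.Helper54.G2Syl
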